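import Mathlib
import Cfsg.Agent.H418.KB.Core

/-!
# S4876: groups of isometries with noncyclic Sylow `p`-subgroups (helper292)

`G` is any group of isometries closed under splitting (`Spl B G`: `O(Q)`, `Sp(B)`), `p` odd, prime to `q`.

* `Tr x y` : `y` is trivial on `[V, x]`;
* `fixs_mul`, `fixs_mul_lt` : the fixed space of `xy`;
* `comm_fix` : isometries normalising `⟨y⟩` and trivial on the fixed space of `y` commute with the elements trivial on `[V, y]`;
* `dich` : a noncyclic `p`-subgroup `P` gives commuting `x`, `y` of order `p`, `y` trivial on `[V, x]`, with fixed spaces of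
  different dimensions, or `u` of order `p²` and `y` of order `p` trivial on `[V, u]`, or `|P| ≤ p²`.
-/

set_option autoImplicit false

open Polynomial Module Cfsg.Agent.H418.KB

namespace Cfsg.Agent.H292.K6

section lin

variable {F V : Type*} [Field F] [AddCommGroup V] [Module F V]

/-- `y` is trivial on `[V, x]` -/
def Tr (x y : V ≃ₗ[F] V) : Prop := ∀ v, y (x v - v) = x v - v

theorem Tr.symm {x y : V ≃ₗ[F] V} (h : Tr x y) (hc : x * y = y * x) : Tr y x := by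
  intro v
  have h1 := h v
  have h2 : x (y v) = y (x v) := LinearEquiv.congr_fun hc v
  rw [map_sub] at h1
  rw [map_sub, h2]
  have h3 : y (x v) = x v - v + y v := by rw [← h1, sub_add_cancel]
  rw [h3]
  abel

theorem pow_fix {y : V ≃ₗ[F] V} {v : V} (h : y v = v) (k : ℕ) : (y ^ k) v = v := by
  induction k with
  | zero => rfl
  | succ k ih => rw [pow_succ, LinearEquiv.mul_apply, h, ih]

theorem inv_fix {y : V ≃ₗ[F] V} {v : V} (h : y v = v) : y⁻¹ v = v := by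
  conv_lhs => rw [← h]
  rw [← LinearEquiv.mul_apply, inv_mul_cancel]
  rfl

theorem Tr.pow {x y : V ≃ₗ[F] V} (h : Tr x y) (k : ℕ) : Tr x (y ^ k) := fun v => pow_fix (h v) k

theorem Tr.inv {x y : V ≃ₗ[F] V} (h : Tr x y) : Tr x y⁻¹ := fun v => inv_fix (h v)

theorem Tr.mul {x y z : V ≃ₗ[F] V} (h : Tr x y) (h' : Tr x z) : Tr x (y * z) := fun v => by
  rw [LinearEquiv.mul_apply, h', h]

theorem Tr.one (x : V ≃ₗ[F] V) : Tr x 1 := fun _ => rfl

theorem Tr.pow_left {x y : V ≃ₗ[F] V} (h : Tr x y) (k : ℕ) : Tr (x ^ k) y := by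
  intro v
  induction k with
  | zero =>
    rw [pow_zero, show (1 : V ≃ₗ[F] V) v = v from rfl, sub_self, map_zero]
  | succ k ih =>
    have h1 : (x ^ (k + 1)) v - v = (x ((x ^ k) v) - (x ^ k) v) + ((x ^ k) v - v) := by
      rw [pow_succ', LinearEquiv.mul_apply]
      abel
    rw [h1, map_add, h, ih]

theorem unip {x : V ≃ₗ[F] V} {n : ℕ} (hn : (n : F) ≠ 0) (hx : x ^ n = 1) {v : V} (h : x (x v - v) = x v - v) :
    x v = v := by
  obtain ⟨u, hu⟩ : ∃ u, u = x v - v := ⟨_, rfl⟩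
  rw [← hu] at h
  have h1 : x v = v + u := by rw [hu]; abel
  have h2 : ∀ m : ℕ, (x ^ m) v = v + (m : F) • u := by
    intro m
    induction m with
    | zero => rw [Nat.cast_zero, zero_smul, add_zero]; rfl
    | succ m ih =>
      rw [pow_succ', LinearEquiv.mul_apply, ih, map_add, map_smul, h, h1, Nat.cast_succ, add_smul, one_smul]
      abel
  have h3 := h2 n
  rw [hx] at h3
  have h4 : (n : F) • u = 0 := by
    have : v + (n : F) • u = v + 0 := by rw [← h3, add_zero]; rfl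
    exact add_left_cancel this
  rw [h1, (smul_eq_zero.1 h4).resolve_left hn, add_zero]

theorem fixs_mul {x y : V ≃ₗ[F] V} (h : Tr x y) (hc : x * y = y * x) {n : ℕ} (hn : (n : F) ≠ 0) (hx : x ^ n = 1) {v : V}
    (hv : (x * y) v = v) : x v = v ∧ y v = v := by
  have h2 : x (y v) = y (x v) := LinearEquiv.congr_fun hc v
  have h3 : x (y v) = v := hv
  have h1 := h v
  rw [map_sub, ← h2, h3] at h1
  -- `y v = 2 v - x v`
  have h4 : y v = v - (x v - v) := by rw [← h1]; abel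
  have h5 : x (x v - v) = x v - v := by
    rw [h4, map_sub x v] at h3
    exact eq_sub_of_add_eq (by rw [add_comm]; exact (sub_eq_iff_eq_add.1 h3).symm)
  have h6 := unip hn hx h5
  refine ⟨h6, ?_⟩
  rw [h4, h6, sub_self, sub_zero]

theorem fixs_mul_eq {x y : V ≃ₗ[F] V} (h : Tr x y) (hc : x * y = y * x) {n : ℕ} (hn : (n : F) ≠ 0) (hx : x ^ n = 1) :
    fixs (x * y) = fixs x ⊓ fixs y := by
  apply le_antisymm
  · intro v hv
    have := fixs_mul h hc hn hx (mem_fixs.1 hv)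
    exact ⟨mem_fixs.2 this.1, mem_fixs.2 this.2⟩
  · rintro v ⟨h1, h2⟩
    rw [mem_fixs, LinearEquiv.mul_apply, mem_fixs.1 h2, mem_fixs.1 h1]

theorem fixs_mul_lt {x y : V ≃ₗ[F] V} (h : Tr x y) (hc : x * y = y * x) {n m : ℕ} (hn : (n : F) ≠ 0) (hx : x ^ n = 1)
    (hm : (m : F) ≠ 0) (hy : y ^ m = 1) (hy1 : y ≠ 1) : fixs (x * y) < fixs x := by
  rw [fixs_mul_eq h hc hn hx]
  refine lt_of_le_of_ne inf_le_left fun he => hy1 ?_
  ext v
  have h1 : y v - v ∈ fixs x := mem_fixs.2 (h.symm hc v)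
  rw [← he] at h1
  exact unip hm hy (mem_fixs.1 h1.2)

theorem finrank_mul_lt [FiniteDimensional F V] {x y : V ≃ₗ[F] V} (h : Tr x y) (hc : x * y = y * x) {n m : ℕ}
    (hn : (n : F) ≠ 0) (hx : x ^ n = 1) (hm : (m : F) ≠ 0) (hy : y ^ m = 1) (hy1 : y ≠ 1) :
    finrank F (fixs (x * y)) < finrank F (fixs x) :=
  Submodule.finrank_lt_finrank_of_lt (fixs_mul_lt h hc hn hx hm hy hy1)

theorem fixs_pow {p : ℕ} (hp : p.Prime) {x : V ≃ₗ[F] V} (hx : x ^ p = 1) {i : ℕ} (hi : ¬ p ∣ i) :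
    fixs (x ^ i) = fixs x := by
  apply le_antisymm
  · intro v hv
    have hco : (orderOf x).Coprime i :=
      Nat.Coprime.coprime_dvd_left (orderOf_dvd_of_pow_eq_one hx) ((Nat.Prime.coprime_iff_not_dvd hp).2 hi)
    obtain ⟨m, hm⟩ := exists_pow_eq_self_of_coprime hco.symm
    rw [mem_fixs] at hv ⊢
    have h1 := pow_fix hv m
    rwa [hm] at h1
  · intro v hv
    rw [mem_fixs] at hv ⊢
    exact pow_fix hv i

/-- see the header -/
theorem comm_fix {y c u : V ≃ₗ[F] V} (hdec : ∀ v, ∃ v₀ z, y v₀ = v₀ ∧ v = v₀ + (y z - z)) {j : ℕ}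
    (hcy : c * y * c⁻¹ = y ^ j) (hcf : ∀ v, y v = v → c v = v) (huy : u * y = y * u) (htr : Tr y u) :
    c * u = u * c := by
  ext v
  obtain ⟨v₀, z, h0, rfl⟩ := hdec v
  have h1 : c (u v₀) = u (c v₀) := by
    rw [hcf v₀ h0]
    apply hcf
    have : y (u v₀) = u (y v₀) := (LinearEquiv.congr_fun huy v₀).symm
    rw [this, h0]
  have h2 : c (y z) = (y ^ j) (c z) := by
    have h3 : c * y = y ^ j * c := by rw [← hcy, inv_mul_cancel_right]
    exact LinearEquiv.congr_fun h3 z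
  have h4 : u (c (y z - z)) = c (y z - z) := by
    rw [map_sub c, h2]
    exact htr.pow_left j (c z)
  rw [LinearEquiv.mul_apply, LinearEquiv.mul_apply, map_add u, map_add c, h1, htr z, map_add c, map_add u, h4]

end lin

section fin

variable {F V : Type*} [Field F] [Fintype F] [AddCommGroup V] [Module F V] {p : ℕ}

theorem exists_dec (hp : p.Prime) (hpF : ¬ p ∣ Fintype.card F) {x : V ≃ₗ[F] V} (hx : x ^ p = 1) (v : V) :
    ∃ v₀ z, x v₀ = v₀ ∧ v = v₀ + (x z - z) := by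
  obtain ⟨z, hz⟩ := range_pr (x := x) (f := X - 1) hp v
  have h1 := ker_pr (x := x) (f := X - 1) hp hpF hx v
  rw [aeval_X_sub_one, sub_eq_zero] at h1
  refine ⟨_, z, h1, ?_⟩
  rw [← aeval_X_sub_one x z, ← hz, sub_add_cancel]

variable {B : V →ₗ[F] V →ₗ[F] F} {G : Subgroup (V ≃ₗ[F] V)}

/-- the decomposition of `f` commuting with `e` -/
theorem exists_blk (hG : Spl B G) (hp : p.Prime) (hpF : ¬ p ∣ Fintype.card F) {e f : V ≃ₗ[F] V} (he : e ∈ G)
    (hep : e ^ p = 1) (hf : f ∈ G) (hfe : f * e = e * f) :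
    ∃ f₁ ∈ G, ∃ f₂ ∈ G, f = f₂ * f₁ ∧ (∀ v, e v = v → f₁ v = f v) ∧ (∀ v, e v = v → f₂ v = v) ∧ Tr e f₁ ∧
      (∀ n, f ^ n = 1 → f₁ ^ n = 1 ∧ f₂ ^ n = 1) ∧
      ∀ g, g * e = e * g → g * f = f * g → g * f₁ = f₁ * g ∧ g * f₂ = f₂ * g := by
  obtain ⟨f₁, hf₁⟩ : ∃ f₁, f₁ = bl hp hpF hep (X - 1) hfe := ⟨_, rfl⟩
  have hker : ∀ v, e v = v → f₁ v = f v := by
    intro v hv
    rw [hf₁]
    refine bl_ker hp hpF hep _ ?_
    rw [aeval_X_sub_one, hv, sub_self]
  have htr : Tr e f₁ := by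
    intro v
    rw [hf₁, ← aeval_X_sub_one]
    exact bl_range hp hpF hep _ v
  have hmem : f₁ ∈ G := by
    rw [hf₁]
    refine bl_mem hp hpF hep _ hG he hf ?_
    intro u hu
    rw [aeval_X_sub_one, sub_eq_zero] at hu ⊢
    exact inv_fix hu
  have hcomm : ∀ g, g * e = e * g → g * f = f * g → g * f₁ = f₁ * g := by
    intro g h1 h2
    ext v
    have h3 : ∀ w, g (f w) = f (g w) := fun w => LinearEquiv.congr_fun h2 w
    rw [LinearEquiv.mul_apply, LinearEquiv.mul_apply, hf₁, bl_apply, bl_apply, map_add, h3, map_sub, pr_comm h1]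
  have hf₁e : f₁ * e = e * f₁ := (hcomm e rfl hfe.symm).symm
  have hff₁ : f * f₁ = f₁ * f := hcomm f hfe rfl
  refine ⟨f₁, hmem, f * f₁⁻¹, G.mul_mem hf (G.inv_mem hmem), by rw [inv_mul_cancel_right], hker, ?_, htr, ?_, ?_⟩
  · intro v hv
    have h1 : e (f₁⁻¹ v) = f₁⁻¹ v := by
      have h2 : e * f₁⁻¹ = f₁⁻¹ * e := by
        rw [eq_inv_mul_iff_mul_eq, ← mul_assoc, hf₁e, mul_assoc, mul_inv_cancel, mul_one]
      have h3 : e (f₁⁻¹ v) = f₁⁻¹ (e v) := LinearEquiv.congr_fun h2 v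
      rw [h3, hv]
    rw [LinearEquiv.mul_apply, ← hker _ h1, ← LinearEquiv.mul_apply, mul_inv_cancel]
    rfl
  · intro n hn
    have h1 : f₁ ^ n = 1 := by
      rw [hf₁]
      exact bl_pow hp hpF hep _ hn
    refine ⟨h1, ?_⟩
    rw [(show Commute f f₁⁻¹ from (show Commute f f₁ from hff₁).inv_right).mul_pow, hn, inv_pow, h1, inv_one, one_mul]
  · intro g h1 h2
    have h3 := hcomm g h1 h2
    refine ⟨h3, ?_⟩
    exact ((show Commute g f from h2).mul_right (show Commute g f₁ from h3).inv_right).eq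

/-- no pair of different dimensions -/
def NP (p : ℕ) (G : Subgroup (V ≃ₗ[F] V)) : Prop :=
  ∀ x ∈ G, ∀ y ∈ G, x ^ p = 1 → y ^ p = 1 → x ≠ 1 → y ≠ 1 → x * y = y * x → Tr x y →
    finrank F (fixs x) = finrank F (fixs y)

omit [Fintype F] in
/-- a group generated by two commuting elements of order `p` -/
theorem exists_el {e f : V ≃ₗ[F] V} (hf : f ^ p = 1) (he : e ^ p = 1) (hfe : f * e = e * f) :
    ∃ A : Subgroup (V ≃ₗ[F] V), f ∈ A ∧ e ∈ A ∧ (∀ x ∈ A, x ^ p = 1) ∧ (∀ x ∈ A, ∀ y ∈ A, x * y = y * x) ∧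
      ∀ H : Subgroup (V ≃ₗ[F] V), f ∈ H → e ∈ H → A ≤ H := by
  refine ⟨Subgroup.closure {f, e}, Subgroup.subset_closure (by simp), Subgroup.subset_closure (by simp), ?_, ?_, ?_⟩
  rotate_left
  · have h1 : ∀ x ∈ Subgroup.closure {f, e}, Commute x f ∧ Commute x e := by
      intro x hx
      induction hx using Subgroup.closure_induction with
      | mem x hx =>
        rcases hx with rfl | rfl
        · exact ⟨rfl, hfe⟩
        · exact ⟨hfe.symm, rfl⟩
      | one => exact ⟨Commute.one_left _, Commute.one_left _⟩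
      | mul x y _ _ h1 h2 => exact ⟨h1.1.mul_left h2.1, h1.2.mul_left h2.2⟩
      | inv x _ h => exact ⟨h.1.inv_left, h.2.inv_left⟩
    intro x hx y hy
    have h2 : Commute x y := by
      induction hy using Subgroup.closure_induction with
      | mem y hy =>
        rcases hy with rfl | rfl
        · exact (h1 x hx).1
        · exact (h1 x hx).2
      | one => exact Commute.one_right _
      | mul y z _ _ h2 h3 => exact h2.mul_right h3
      | inv y _ h => exact h.inv_right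
    exact h2
  · intro H h1 h2
    rw [Subgroup.closure_le]
    rintro x (rfl | rfl)
    · exact h1
    · exact h2
  · have h1 : ∀ x ∈ Subgroup.closure {f, e}, Commute x f ∧ Commute x e := by
      intro x hx
      induction hx using Subgroup.closure_induction with
      | mem x hx =>
        rcases hx with rfl | rfl
        · exact ⟨rfl, hfe⟩
        · exact ⟨hfe.symm, rfl⟩
      | one => exact ⟨Commute.one_left _, Commute.one_left _⟩
      | mul x y _ _ h1 h2 => exact ⟨h1.1.mul_left h2.1, h1.2.mul_left h2.2⟩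
      | inv x _ h => exact ⟨h.1.inv_left, h.2.inv_left⟩
    have h2 : ∀ x ∈ Subgroup.closure {f, e}, ∀ y ∈ Subgroup.closure {f, e}, Commute x y := by
      intro x hx y hy
      induction hy using Subgroup.closure_induction with
      | mem y hy =>
        rcases hy with rfl | rfl
        · exact (h1 x hx).1
        · exact (h1 x hx).2
      | one => exact Commute.one_right _
      | mul y z _ _ h2 h3 => exact h2.mul_right h3
      | inv y _ h => exact h.inv_right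
    intro x hx
    induction hx using Subgroup.closure_induction with
    | mem x hx =>
      rcases hx with rfl | rfl
      · exact hf
      · exact he
    | one => exact one_pow _
    | mul x y hx hy h3 h4 => rw [(h2 x hx y hy).mul_pow, h3, h4, one_mul]
    | inv x _ h => rw [inv_pow, h, inv_one]

variable [FiniteDimensional F V]

/-- **no triples** -/
theorem no_triple (hG : Spl B G) (hp : p.Prime) (hpF : ¬ p ∣ Fintype.card F) (hNP : NP p G) {y e f : V ≃ₗ[F] V}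
    (hy : y ∈ G) (he : e ∈ G) (hf : f ∈ G) (hyp : y ^ p = 1) (hep : e ^ p = 1) (hfp : f ^ p = 1) (hy1 : y ≠ 1)
    (he1 : e ≠ 1) (hfe : f * e = e * f) (hye : Tr y e) (hyf : Tr y f) : ∃ i : ℕ, f = e ^ i := by
  by_contra hno
  push Not at hno
  have hpF' := p_ne (F := F) hp hpF
  obtain ⟨A, hfA, heA, hAp, hAc, hAle⟩ := exists_el hfp hep hfe
  have hf1 : f ≠ 1 := fun h => hno 0 (by rw [h, pow_zero])
  obtain ⟨e', he', f', hf', he'1, v, hv, hfv⟩ := exists_move hp hpF hAp hAc hfA heA hf1 hno he1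
  have hAG : A ≤ G := hAle G hf he
  have hAtr : ∀ a ∈ A, Tr y a := by
    let H : Subgroup (V ≃ₗ[F] V) :=
      { carrier := {a | Tr y a}
        mul_mem' := fun h h' => h.mul h'
        one_mem' := Tr.one y
        inv_mem' := fun h => h.inv }
    exact fun a ha => hAle H hyf hye ha
  obtain ⟨f₁, hf₁, f₂, hf₂, -, hker, -, htr, hpw, hcm⟩ := exists_blk hG hp hpF (hAG he') (hAp _ he') (hAG hf')
    (hAc _ hf' _ he')
  have hf₁1 : f₁ ≠ 1 := by
    intro h
    have := hker v hv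
    rw [h] at this
    exact hfv this.symm
  have hf₁p : f₁ ^ p = 1 := (hpw p (hAp _ hf')).1
  have hcomm : e' * f₁ = f₁ * e' := (hcm e' rfl (hAc _ he' _ hf')).1
  have htr1 : Tr y f₁ := by
    intro w
    rw [hker _ (hAtr e' he' w), hAtr f' hf' w]
  have hlt := finrank_mul_lt htr hcomm hpF' (hAp _ he') hpF' hf₁p hf₁1
  have hcy : ∀ a, a ∈ G → a ^ p = 1 → Tr y a → y * a = a * y := by
    intro a ha hap h
    exact (comm_of_triv hG hp hpF hy hyp ha h).symm
  have h1 := hNP y hy e' (hAG he') hyp (hAp _ he') hy1 he'1 (hcy _ (hAG he') (hAp _ he') (hAtr _ he')) (hAtr _ he')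
  have hmul1 : e' * f₁ ≠ 1 := by
    intro h
    rw [h] at hlt
    have h3 : fixs (1 : V ≃ₗ[F] V) = ⊤ := by
      rw [eq_top_iff]
      exact fun v _ => mem_fixs.2 rfl
    rw [h3, finrank_top] at hlt
    exact absurd (Submodule.finrank_le (fixs e')) (not_le.2 hlt)
  have hmulp : (e' * f₁) ^ p = 1 := by
    rw [(show Commute e' f₁ from hcomm).mul_pow, hAp _ he', hf₁p, one_mul]
  have h2 := hNP y hy (e' * f₁) (G.mul_mem (hAG he') hf₁) hyp hmulp hy1 hmul1
    (hcy _ (G.mul_mem (hAG he') hf₁) hmulp ((hAtr _ he').mul htr1)) ((hAtr _ he').mul htr1)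
  omega

omit [Fintype F] [FiniteDimensional F V] in
theorem not_pow {x y : V ≃ₗ[F] V} (hpF : (p : F) ≠ 0) (hx : x ^ p = 1) (hx1 : x ≠ 1) (h : Tr x y) (i : ℕ) :
    x ≠ y ^ i := by
  intro he
  have h1 := h.pow i
  rw [← he] at h1
  exact hx1 (LinearEquiv.ext fun v => unip hpF hx (h1 v))

omit [Fintype F] [FiniteDimensional F V] in
theorem finrank_conj (w x : V ≃ₗ[F] V) : finrank F (fixs (w * x * w⁻¹)) = finrank F (fixs x) := by
  have h1 : fixs (w * x * w⁻¹) = (fixs x).map (w : V →ₗ[F] V) := by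
    ext v
    constructor
    · intro hv
      rw [mem_fixs] at hv
      refine ⟨w⁻¹ v, ?_, ?_⟩
      · have h2 : w⁻¹ ((w * x * w⁻¹) v) = w⁻¹ v := by rw [hv]
        rw [← LinearEquiv.mul_apply, mul_assoc w x, inv_mul_cancel_left] at h2
        exact mem_fixs.2 h2
      · show (w * w⁻¹) v = v
        rw [mul_inv_cancel]
        rfl
    · rintro ⟨u, hu, rfl⟩
      rw [mem_fixs]
      show (w * x * w⁻¹ * w) u = w u
      rw [inv_mul_cancel_right, LinearEquiv.mul_apply, mem_fixs.1 hu]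
  rw [h1]
  exact (Submodule.equivMapOfInjective (w : V →ₗ[F] V) w.injective _).finrank_eq.symm

theorem comm_of_norm {H : Type*} [Group H] [hp : Fact p.Prime] {w x : H} {k : ℕ} (hw : w ^ p ^ k = 1) (hx : x ^ p = 1)
    {i : ℕ} (h : w * x * w⁻¹ = x ^ i) : w * x = x * w := by
  have hit : ∀ m : ℕ, w ^ m * x * (w ^ m)⁻¹ = x ^ (i ^ m) := by
    intro m
    induction m with
    | zero => simp
    | succ m ih =>
      have h1 : w ^ (m + 1) * x * (w ^ (m + 1))⁻¹ = w * (w ^ m * x * (w ^ m)⁻¹) * w⁻¹ := by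
        rw [pow_succ']
        group
      rw [h1, ih, ← conj_pow, h, ← pow_mul, pow_succ']
  have h1 := hit (p ^ k)
  rw [hw, one_mul, inv_one, mul_one] at h1
  have h2 : x ^ (i ^ p ^ k) = x ^ i := by
    refine pow_eq_pow_iff_modEq.2 (Nat.ModEq.of_dvd (orderOf_dvd_of_pow_eq_one hx) ?_)
    rw [← ZMod.natCast_eq_natCast_iff, Nat.cast_pow, ZMod.pow_card_pow]
  rw [← h1] at h2
  rw [← h2] at h
  exact mul_inv_eq_iff_eq_mul.1 h

/-- the elements with a fixed space of the dimension of that of `x` -/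
theorem class_of (hG : Spl B G) (hp : p.Prime) (hpF : ¬ p ∣ Fintype.card F) (hNP : NP p G) {x y a : V ≃ₗ[F] V}
    (hx : x ∈ G) (hy : y ∈ G) (ha : a ∈ G) (hxp : x ^ p = 1) (hyp : y ^ p = 1) (hap : a ^ p = 1) (hx1 : x ≠ 1)
    (hy1 : y ≠ 1) (hxy : x * y = y * x) (htr : Tr x y) (hax : a * x = x * a) (hay : a * y = y * a) :
    (∃ i j : ℕ, a = x ^ i * y ^ j) ∧
      (finrank F (fixs a) = finrank F (fixs x) → (∃ i : ℕ, a = x ^ i) ∨ ∃ i : ℕ, a = y ^ i) := by
  have hpF' := p_ne (F := F) hp hpF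
  have htr' : Tr y x := htr.symm hxy
  obtain ⟨a₁, ha₁, a₂, ha₂, hae, -, hfix, htr1, hpw, hcm⟩ := exists_blk hG hp hpF hx hxp ha hax
  have h2 : Tr y a₂ := fun v => hfix _ (htr' v)
  obtain ⟨i, hi⟩ := no_triple hG hp hpF hNP hy hx ha₂ hyp hxp (hpw p hap).2 hy1 hx1 ((hcm x rfl hax.symm).2).symm htr' h2
  obtain ⟨j, hj⟩ := no_triple hG hp hpF hNP hx hy ha₁ hxp hyp (hpw p hap).1 hx1 hy1 ((hcm y hxy.symm hay.symm).1).symm
    htr htr1
  have hae' : a = x ^ i * y ^ j := by rw [hae, hi, hj]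
  refine ⟨⟨i, j, hae'⟩, fun hD => ?_⟩
  by_cases hpi : p ∣ i
  · obtain ⟨k, rfl⟩ := hpi
    right
    exact ⟨j, by rw [hae', pow_mul, hxp, one_pow, one_mul]⟩
  by_cases hpj : p ∣ j
  · obtain ⟨k, rfl⟩ := hpj
    left
    exact ⟨i, by rw [hae', pow_mul y, hyp, one_pow, mul_one]⟩
  exfalso
  have hxi : (x ^ i) ^ p = 1 := by rw [← pow_mul, mul_comm, pow_mul, hxp, one_pow]
  have hyj : (y ^ j) ^ p = 1 := by rw [← pow_mul, mul_comm, pow_mul, hyp, one_pow]
  have hyj1 : y ^ j ≠ 1 := by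
    intro h
    have h3 := orderOf_dvd_of_pow_eq_one h
    have : Fact p.Prime := ⟨hp⟩
    rw [orderOf_eq_prime hyp hy1] at h3
    exact hpj h3
  have hlt := finrank_mul_lt ((htr.pow_left i).pow j) (((show Commute x y from hxy).pow_pow i j).eq) hpF' hxi hpF' hyj hyj1
  rw [← hae', fixs_pow hp hxp hpi] at hlt
  omega

/-- a `p`-element normalising the group of the pair centralises it -/
theorem comm_pair (hG : Spl B G) [hp : Fact p.Prime] (h2 : 2 < p) (hpF : ¬ p ∣ Fintype.card F) (hNP : NP p G)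
    {x y w : V ≃ₗ[F] V} (hx : x ∈ G) (hy : y ∈ G) (hw : w ∈ G) (hxp : x ^ p = 1) (hyp : y ^ p = 1) {k : ℕ}
    (hwo : w ^ p ^ k = 1) (hx1 : x ≠ 1) (hy1 : y ≠ 1) (hxy : x * y = y * x) (htr : Tr x y)
    (hc1 : (w * x * w⁻¹) * x = x * (w * x * w⁻¹)) (hc2 : (w * x * w⁻¹) * y = y * (w * x * w⁻¹))
    (hc3 : (w * y * w⁻¹) * x = x * (w * y * w⁻¹)) (hc4 : (w * y * w⁻¹) * y = y * (w * y * w⁻¹)) :
    w * x = x * w ∧ w * y = y * w := by
  have hpF' := p_ne (F := F) hp.out hpF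
  have htr' : Tr y x := htr.symm hxy
  have hD := hNP x hx y hy hxp hyp hx1 hy1 hxy htr
  have hx' := (class_of hG hp.out hpF hNP hx hy (G.mul_mem (G.mul_mem hw hx) (G.inv_mem hw)) hxp hyp
    (by rw [conj_pow, hxp, mul_one, mul_inv_cancel]) hx1 hy1 hxy htr hc1 hc2).2 (finrank_conj w x)
  have hy' := (class_of hG hp.out hpF hNP hx hy (G.mul_mem (G.mul_mem hw hy) (G.inv_mem hw)) hxp hyp
    (by rw [conj_pow, hyp, mul_one, mul_inv_cancel]) hx1 hy1 hxy htr hc3 hc4).2 (by rw [finrank_conj, hD])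
  have hnx : ∀ i : ℕ, x ≠ y ^ i := not_pow hpF' hxp hx1 htr
  have hny : ∀ i : ℕ, y ≠ x ^ i := not_pow hpF' hyp hy1 htr'
  rcases hx' with ⟨i, hi⟩ | ⟨i, hi⟩
  · have h1 := comm_of_norm hwo hxp hi
    refine ⟨h1, ?_⟩
    rcases hy' with ⟨j, hj⟩ | ⟨j, hj⟩
    · exfalso
      apply hny j
      have h3 : w * x ^ j * w⁻¹ = x ^ j := by
        rw [((show Commute w x from h1).pow_right j).eq, mul_inv_cancel_right]
      have h4 : w * y * w⁻¹ = w * x ^ j * w⁻¹ := by rw [hj, h3]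
      exact mul_left_cancel (mul_right_cancel h4)
    · exact comm_of_norm hwo hyp hj
  · exfalso
    rcases hy' with ⟨j, hj⟩ | ⟨j, hj⟩
    · -- the powers of `w` of odd exponent interchange the two groups
      have key : ∀ m : ℕ, (∃ a : ℕ, w ^ (2 * m + 1) * x * (w ^ (2 * m + 1))⁻¹ = y ^ a) := by
        intro m
        induction m with
        | zero => exact ⟨i, by simpa using hi⟩
        | succ m ih =>
          obtain ⟨a, ha⟩ := ih
          refine ⟨i * (j * a), ?_⟩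
          have h1 : w ^ (2 * (m + 1) + 1) * x * (w ^ (2 * (m + 1) + 1))⁻¹ =
              w * (w * (w ^ (2 * m + 1) * x * (w ^ (2 * m + 1))⁻¹) * w⁻¹) * w⁻¹ := by
            rw [show 2 * (m + 1) + 1 = (2 * m + 1) + 1 + 1 by ring, pow_succ', pow_succ']
            group
          rw [h1, ha, ← conj_pow, hj, ← pow_mul, ← conj_pow, hi, ← pow_mul]
      have hodd : Odd (p ^ k) := (hp.out.odd_of_ne_two (by omega)).pow
      obtain ⟨m, hm⟩ := hodd
      obtain ⟨a, ha⟩ := key m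
      rw [← hm, hwo, one_mul, inv_one, mul_one] at ha
      exact hnx a ha
    · have h1 := comm_of_norm hwo hyp hj
      apply hnx i
      have h3 : w * y ^ i * w⁻¹ = y ^ i := by
        rw [((show Commute w y from h1).pow_right i).eq, mul_inv_cancel_right]
      have h4 : w * x * w⁻¹ = w * y ^ i * w⁻¹ := by rw [hi, h3]
      exact mul_left_cancel (mul_right_cancel h4)

omit [Fintype F] [FiniteDimensional F V] in
/-- an element of order `p²` -/
theorem exists_sq_order {w : V ≃ₗ[F] V} (hp : p.Prime) {k : ℕ} (hw : w ^ p ^ k = 1) (hwp : w ^ p ≠ 1) :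
    ∃ m : ℕ, orderOf (w ^ m) = p ^ 2 := by
  obtain ⟨s, -, hs⟩ := (Nat.dvd_prime_pow hp).1 (orderOf_dvd_of_pow_eq_one hw)
  have hs2 : 2 ≤ s := by
    by_contra h
    apply hwp
    have h1 : s ≤ 1 := by omega
    apply orderOf_dvd_iff_pow_eq_one.1
    rw [hs]
    exact (pow_dvd_pow p h1).trans (by rw [pow_one])
  refine ⟨p ^ (s - 2), ?_⟩
  rw [orderOf_pow_of_dvd (pow_ne_zero _ hp.ne_zero) (by rw [hs]; exact pow_dvd_pow p (by omega)), hs,
    Nat.pow_div (by omega) hp.pos]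
  congr 1
  omega

/-- **the dichotomy** -/
theorem dich (hG : Spl B G) [hp : Fact p.Prime] (h2 : 2 < p) (hpF : ¬ p ∣ Fintype.card F)
    {P : Subgroup (V ≃ₗ[F] V)} (hPG : P ≤ G) (hP : IsPGroup p P) (hnc : ¬ IsCyclic P) :
    (∃ x ∈ G, ∃ y ∈ G, x ^ p = 1 ∧ y ^ p = 1 ∧ x ≠ 1 ∧ y ≠ 1 ∧ x * y = y * x ∧ Tr x y ∧
      finrank F (fixs x) ≠ finrank F (fixs y)) ∨
    (∃ u ∈ G, ∃ y ∈ G, orderOf u = p ^ 2 ∧ y ^ p = 1 ∧ y ≠ 1 ∧ u * y = y * u ∧ Tr y u) ∨
    (Nat.card P ≤ p ^ 2 ∧ ∃ x ∈ G, ∃ y ∈ G, x ^ p = 1 ∧ y ^ p = 1 ∧ x ≠ 1 ∧ y ≠ 1 ∧ x * y = y * x ∧ Tr x y ∧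
      finrank F (fixs x) = finrank F (fixs y)) := by
  have hfin : Finite V := Module.finite_of_finite F
  have hfinL : Finite (V ≃ₗ[F] V) := Finite.of_injective (fun f => (f : V → V)) DFunLike.coe_injective
  have hpF' := p_ne (F := F) hp.out hpF
  by_cases hNP : NP p G
  swap
  · left
    unfold NP at hNP
    push Not at hNP
    obtain ⟨x, hx, y, hy, h3, h4, h5, h6, h7, h8, h9⟩ := hNP
    exact ⟨x, hx, y, hy, h3, h4, h5, h6, h7, h8, h9⟩
  right
  obtain ⟨A₀, hA₀n, ⟨hAc, hAp⟩, hAcard⟩ := Cfsg.Agent.S0126.result (by omega) hP hnc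
  have hA1 : Nat.card A₀ ≠ 1 := by
    rw [hAcard]
    have := hp.out.one_lt
    intro h
    rw [Nat.pow_eq_one] at h
    omega
  obtain ⟨b, hb⟩ : ∃ b : A₀, b ≠ 1 := by
    by_contra hno
    push Not at hno
    apply hA1
    rw [Nat.card_eq_one_iff_unique]
    exact ⟨⟨fun x y => by rw [hno x, hno y]⟩, ⟨1⟩⟩
  have hbp : b ^ p = 1 := Subtype.ext (hAp b b.2)
  have hbo : orderOf b = p := orderOf_eq_prime hbp hb
  obtain ⟨a, ha⟩ : ∃ a : A₀, a ∉ Subgroup.zpowers b := by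
    by_contra hno
    push Not at hno
    have h1 : Subgroup.zpowers b = ⊤ := by
      rw [eq_top_iff]
      exact fun x _ => hno x
    have h2 : Nat.card (Subgroup.zpowers b) = p := by rw [Nat.card_zpowers, hbo]
    rw [h1, Subgroup.card_top, hAcard] at h2
    have := hp.out.one_lt
    nlinarith
  obtain ⟨A, hA⟩ : ∃ A, A = A₀.map P.subtype := ⟨_, rfl⟩
  have hAP : A ≤ P := by
    rw [hA]
    rintro _ ⟨a, -, rfl⟩
    exact a.2
  have hAG : A ≤ G := hAP.trans hPG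
  have hAp' : ∀ x ∈ A, x ^ p = 1 := by
    rw [hA]
    rintro _ ⟨a, ha, rfl⟩
    have := congrArg P.subtype (hAp a ha)
    simpa using this
  have hAc' : ∀ x ∈ A, ∀ y ∈ A, x * y = y * x := by
    rw [hA]
    rintro _ ⟨a, ha, rfl⟩ _ ⟨b, hb, rfl⟩
    have h3 := hAc.is_comm.comm ⟨a, ha⟩ ⟨b, hb⟩
    exact congrArg (fun z : A₀ => P.subtype z) h3
  have hAn : ∀ w ∈ P, ∀ x ∈ A, w * x * w⁻¹ ∈ A := by
    rw [hA]
    rintro w hw _ ⟨x, hx, rfl⟩
    exact ⟨⟨w, hw⟩ * x * (⟨w, hw⟩)⁻¹, hA₀n.conj_mem x hx ⟨w, hw⟩, rfl⟩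
  have hAcard' : Nat.card A = p ^ 2 := by
    rw [hA, ← hAcard]
    exact (Nat.card_congr (A₀.equivMapOfInjective P.subtype P.subtype_injective).toEquiv).symm
  obtain ⟨x, hxA, f, hfA, hx1, v, hv, hfv⟩ := exists_move hp.out hpF (A := A) hAp' hAc' (a := (a : P)) (b := (b : P))
    (by rw [hA]; exact ⟨a, a.2, rfl⟩) (by rw [hA]; exact ⟨b, b.2, rfl⟩) (by
      intro h
      apply ha
      have : a = 1 := Subtype.ext (Subtype.ext h)
      rw [this]
      exact one_mem _) (by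
      intro i h
      apply ha
      have h3 : a = b ^ i := Subtype.ext (Subtype.ext h)
      rw [h3]
      exact Subgroup.pow_mem _ (Subgroup.mem_zpowers b) i) (by
      intro h
      exact hb (Subtype.ext (Subtype.ext h)))
  -- the pair `x`, `y`
  obtain ⟨y, hy, f₂, hf₂, hff, hker, hfix, htr, hpw, hcm⟩ := exists_blk hG hp.out hpF (hAG hxA) (hAp' _ hxA) (hAG hfA)
    (hAc' _ hfA _ hxA)
  have hy1 : y ≠ 1 := by
    intro h
    have := hker v hv
    rw [h] at this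
    exact hfv this.symm
  have hyp : y ^ p = 1 := (hpw p (hAp' _ hfA)).1
  have hxp := hAp' _ hxA
  have hx := hAG hxA
  have hxy : x * y = y * x := (hcm x rfl (hAc' _ hxA _ hfA)).1
  have htr' : Tr y x := htr.symm hxy
  have hD := hNP x hx y hy hxp hyp hx1 hy1 hxy htr
  have hyA : y ∈ A := by
    obtain ⟨i, hi⟩ := no_triple hG hp.out hpF hNP hy hx hf₂ hyp hxp (hpw p (hAp' _ hfA)).2 hy1 hx1
      ((hcm x rfl (hAc' _ hxA _ hfA)).2).symm htr' (fun v => hfix _ (htr' v))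
    have h3 : y = f₂⁻¹ * f := by rw [hff, inv_mul_cancel_left]
    rw [h3, hi]
    exact A.mul_mem (A.inv_mem (A.pow_mem hxA i)) hfA
  -- everything in `P` commutes with `x` and `y`
  have hPo : ∀ w ∈ P, ∃ k : ℕ, w ^ p ^ k = 1 := by
    intro w hw
    obtain ⟨k, hk⟩ := hP ⟨w, hw⟩
    exact ⟨k, congrArg Subtype.val hk⟩
  have hPc : ∀ w ∈ P, w * x = x * w ∧ w * y = y * w := by
    intro w hw
    obtain ⟨k, hk⟩ := hPo w hw
    exact comm_pair hG h2 hpF hNP hx hy (hPG hw) hxp hyp hk hx1 hy1 hxy htr (hAc' _ (hAn w hw x hxA) _ hxA)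
      (hAc' _ (hAn w hw x hxA) _ hyA) (hAc' _ (hAn w hw y hyA) _ hxA) (hAc' _ (hAn w hw y hyA) _ hyA)
  by_cases hno : ∃ u ∈ G, ∃ y ∈ G, orderOf u = p ^ 2 ∧ y ^ p = 1 ∧ y ≠ 1 ∧ u * y = y * u ∧ Tr y u
  · exact Or.inl hno
  right
  refine ⟨?_, x, hx, y, hy, hxp, hyp, hx1, hy1, hxy, htr, hD⟩
  have hPA : P ≤ A := by
    intro w hw
    obtain ⟨k, hk⟩ := hPo w hw
    obtain ⟨hwx, hwy⟩ := hPc w hw
    obtain ⟨w₁, hw₁, w₂, hw₂, hww, -, hwfix, hwtr, hwpw, hwcm⟩ := exists_blk hG hp.out hpF hx hxp (hPG hw) hwx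
    have c1 : w₁ * x = x * w₁ := ((hwcm x rfl hwx.symm).1).symm
    have c2 : w₂ * x = x * w₂ := ((hwcm x rfl hwx.symm).2).symm
    have c3 : w₁ * y = y * w₁ := ((hwcm y hxy.symm hwy.symm).1).symm
    have c4 : w₂ * y = y * w₂ := ((hwcm y hxy.symm hwy.symm).2).symm
    have t2 : Tr y w₂ := fun v => hwfix _ (htr' v)
    have h3 : w₁ ^ p = 1 := by
      by_contra h3
      obtain ⟨m, hm⟩ := exists_sq_order hp.out (hwpw _ hk).1 h3
      exact hno ⟨w₁ ^ m, G.pow_mem hw₁ m, x, hx, hm, hxp, hx1, ((show Commute w₁ x from c1).pow_left m).eq, hwtr.pow m⟩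
    have h4 : w₂ ^ p = 1 := by
      by_contra h4
      obtain ⟨m, hm⟩ := exists_sq_order hp.out (hwpw _ hk).2 h4
      exact hno ⟨w₂ ^ m, G.pow_mem hw₂ m, y, hy, hm, hyp, hy1, ((show Commute w₂ y from c4).pow_left m).eq, t2.pow m⟩
    obtain ⟨i, hi⟩ := no_triple hG hp.out hpF hNP hy hx hw₂ hyp hxp h4 hy1 hx1 c2 htr' t2
    obtain ⟨j, hj⟩ := no_triple hG hp.out hpF hNP hx hy hw₁ hxp hyp h3 hx1 hy1 c3 htr hwtr
    rw [hww, hi, hj]
    exact A.mul_mem (A.pow_mem hxA i) (A.pow_mem hyA j)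
  rw [← hAcard']
  exact Nat.card_le_card_of_injective _ (Subgroup.inclusion_injective hPA)

end fin

end Cfsg.Agent.H292.K6
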