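import Mathlib
import Cfsg.Agent.H292.K6.Dich
import Cfsg.Agent.LieClassical.OrthTrans

/-!
# S4876, orthogonal groups, `p = 5`, `q² ≢ 1`: correction of isometries (helper292)

`corr` : `y` an isometry of order 5, `x` an isometry commuting with `y`, `y` trivial on `[V, x]`, `w` a nonsingular vector
fixed by `x` and `y`: every isometry can be multiplied by an isometry centralising `x` and `y` to get an element of `E Q`.
In odd characteristic: `-1` on the span of `v, y v, y² v, y³ v` has spinor norm `5`, and 5 is not a square.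
-/

set_option autoImplicit false
set_option linter.unusedSectionVars false

open Polynomial Module Cfsg.Agent.H418.KB QuadraticMap
open Cfsg.Agent.LieClassical.OrthCore Cfsg.Agent.LieClassical.OrthTrans

namespace Cfsg.Agent.H292.K6

section dim

variable {F V : Type*} [Field F] [AddCommGroup V] [Module F V] [Finite V] {p : ℕ}

/-- invariant subspaces without fixed vectors -/
theorem card_modEq_one [hp : Fact p.Prime] {y : V ≃ₗ[F] V} (hy : y ^ p = 1) {W : Submodule F V} (hW : ∀ v ∈ W, y v ∈ W)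
    (hfix : ∀ v ∈ W, y v = v → v = 0) : Nat.card W ≡ 1 [MOD p] := by
  classical
  have hfin := Fintype.ofFinite V
  let H : Subgroup (V ≃ₗ[F] V) :=
    { carrier := {g | ∀ v, g v ∈ W ↔ v ∈ W}
      mul_mem' := fun {a b} ha hb v => (ha (b v)).trans (hb v)
      one_mem' := fun v => Iff.rfl
      inv_mem' := fun {a} ha v => by
        have h1 := ha (a⁻¹ v)
        have h2 : a (a⁻¹ v) = v := a.apply_symm_apply v
        rw [h2] at h1
        exact h1.symm }
  have hpow : ∀ (k : ℕ) (v : V), v ∈ W → (y ^ k) v ∈ W := by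
    intro k
    induction k with
    | zero => exact fun v hv => hv
    | succ k ih =>
      intro v hv
      rw [pow_succ, LinearEquiv.mul_apply]
      exact ih _ (hW v hv)
  have hyH : y ∈ H := by
    intro v
    refine ⟨fun h => ?_, hW v⟩
    have h1 := hpow (p - 1) _ h
    rw [← LinearEquiv.mul_apply, ← pow_succ, Nat.sub_add_cancel hp.out.one_lt.le, hy] at h1
    exact h1
  have hle : Subgroup.zpowers y ≤ H := (H.zpowers_le).2 hyH
  let _ : MulAction (Subgroup.zpowers y) W :=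
    { smul := fun g v => ⟨(g : V ≃ₗ[F] V) v.1, (hle g.2 v.1).2 v.2⟩
      one_smul := fun v => Subtype.ext rfl
      mul_smul := fun g h v => Subtype.ext rfl }
  have hfinL : Finite (V ≃ₗ[F] V) := Finite.of_injective (fun f => (f : V → V)) DFunLike.coe_injective
  have hG : IsPGroup p (Subgroup.zpowers y) := by
    rcases eq_or_ne y 1 with h | h
    · rw [h, Subgroup.zpowers_one_eq_bot]
      exact IsPGroup.of_bot
    · refine IsPGroup.of_card (n := 1) ?_
      rw [Nat.card_zpowers, orderOf_eq_prime hy h, pow_one]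
  have h1 := hG.card_modEq_card_fixedPoints W
  have h2 : Nat.card (MulAction.fixedPoints (Subgroup.zpowers y) W) = 1 := by
    rw [Nat.card_eq_one_iff_exists]
    refine ⟨⟨0, ?_⟩, ?_⟩
    · intro g
      exact Subtype.ext (map_zero (g : V ≃ₗ[F] V))
    · rintro ⟨⟨v, hv⟩, h⟩
      apply Subtype.ext
      apply Subtype.ext
      exact hfix v hv (congrArg Subtype.val (h ⟨y, Subgroup.mem_zpowers y⟩))
  rw [h2] at h1
  exact h1

end dim

section five

variable {F V : Type*} [Field F] [Fintype F] [AddCommGroup V] [Module F V] [FiniteDimensional F V]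

theorem pow_eq_one_five {q k : ℕ} (hq : ¬ 5 ∣ q ^ 2 - 1) (hq5 : ¬ 5 ∣ q) (h : q ^ k ≡ 1 [MOD 5]) : 4 ∣ k := by
  have h1 : (q : ZMod 5) ≠ 0 := by rwa [Ne, ZMod.natCast_eq_zero_iff]
  have h2 : (q : ZMod 5) ^ 2 ≠ 1 := by
    intro h2
    apply hq
    rcases Nat.eq_zero_or_pos q with rfl | h0
    · exact absurd (dvd_zero 5) hq5
    have h3 : 1 ≤ q ^ 2 := Nat.one_le_pow _ _ h0
    rw [← ZMod.natCast_eq_zero_iff, Nat.cast_sub h3, Nat.cast_pow, h2, Nat.cast_one, sub_self]
  have h3 : (q : ZMod 5) ^ k = 1 := by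
    have := (ZMod.natCast_eq_natCast_iff _ _ _).2 h
    rwa [Nat.cast_pow, Nat.cast_one] at this
  generalize (q : ZMod 5) = a at h1 h2 h3
  have h4 : a ^ 4 = 1 := by
    clear h2 h3
    revert a
    decide
  have h5 : orderOf a = 4 := by
    have h6 : orderOf a ∣ 4 := orderOf_dvd_of_pow_eq_one h4
    have h7 : ¬ orderOf a ∣ 2 := fun h => h2 (orderOf_dvd_iff_pow_eq_one.1 h)
    have h8 : orderOf a ≤ 4 := Nat.le_of_dvd (by norm_num) h6
    interval_cases orderOf a <;> omega
  rw [← h5]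
  exact orderOf_dvd_of_pow_eq_one h3

theorem four_dvd_finrank (hq : ¬ 5 ∣ Fintype.card F ^ 2 - 1) (hq5 : ¬ 5 ∣ Fintype.card F) {y : V ≃ₗ[F] V}
    (hy : y ^ 5 = 1) {W : Submodule F V} (hW : ∀ v ∈ W, y v ∈ W) (hfix : ∀ v ∈ W, y v = v → v = 0) :
    4 ∣ finrank F W := by
  have : Fact (Nat.Prime 5) := ⟨by norm_num⟩
  have hfin : Finite V := Module.finite_of_finite F
  have h1 := card_modEq_one hy hW hfix
  rw [Module.natCard_eq_pow_finrank (K := F), Nat.card_eq_fintype_card] at h1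
  exact pow_eq_one_five hq hq5 h1

theorem li_five (hq : ¬ 5 ∣ Fintype.card F ^ 2 - 1) (hq5 : ¬ 5 ∣ Fintype.card F) {y : V ≃ₗ[F] V}
    (hy : y ^ 5 = 1) {v : V} (hv : ∃ z, v = y z - z) (hv0 : v ≠ 0) :
    LinearIndependent F (fun i : Fin 4 => (y ^ (i : ℕ)) v) := by
  have hp5 : (Nat.Prime 5) := by norm_num
  have h5F := p_ne (F := F) hp5 hq5
  obtain ⟨z, hz⟩ := hv
  have e1 : ∀ k : ℕ, y ((y ^ k) v) = (y ^ (k + 1)) v := fun k => by rw [pow_succ', LinearEquiv.mul_apply]
  have hz5 : y (y (y (y (y z)))) = z := by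
    have := LinearEquiv.congr_fun hy z
    simpa [pow_succ] using this
  have hN : (y ^ 4) v = -(v + y v + (y ^ 2) v + (y ^ 3) v) := by
    simp only [pow_succ, pow_zero, one_mul, LinearEquiv.mul_apply]
    rw [hz]
    simp only [map_sub, hz5]
    abel
  obtain ⟨W, hWd⟩ : ∃ W, W = Submodule.span F (Set.range fun i : Fin 4 => (y ^ (i : ℕ)) v) := ⟨_, rfl⟩
  have hmem : ∀ k : ℕ, k < 4 → (y ^ k) v ∈ W := fun k hk => by
    rw [hWd]
    exact Submodule.subset_span ⟨⟨k, hk⟩, rfl⟩
  have h0 : v ∈ W := hmem 0 (by norm_num)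
  have h1 : y v ∈ W := hmem 1 (by norm_num)
  have hW : ∀ u ∈ W, y u ∈ W := by
    intro u hu
    have hle : W ≤ W.comap (y : V →ₗ[F] V) := by
      conv_lhs => rw [hWd]
      rw [Submodule.span_le]
      rintro _ ⟨i, rfl⟩
      change y ((y ^ (i : ℕ)) v) ∈ W
      rw [e1]
      rcases Nat.lt_or_ge ((i : ℕ) + 1) 4 with h | h
      · exact hmem _ h
      · have h3 : (i : ℕ) + 1 = 4 := by omega
        rw [h3, hN]
        exact W.neg_mem (W.add_mem (W.add_mem (W.add_mem h0 h1) (hmem 2 (by norm_num))) (hmem 3 (by norm_num)))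
    exact hle hu
  have hWr : ∀ u ∈ W, ∃ z, u = y z - z := by
    have hle : W ≤ LinearMap.range ((y : V →ₗ[F] V) - 1) := by
      conv_lhs => rw [hWd]
      rw [Submodule.span_le]
      rintro _ ⟨i, rfl⟩
      refine ⟨(y ^ (i : ℕ)) z, ?_⟩
      change y ((y ^ (i : ℕ)) z) - (y ^ (i : ℕ)) z = (y ^ (i : ℕ)) v
      rw [hz, map_sub, ← LinearEquiv.mul_apply, ← LinearEquiv.mul_apply, ← pow_succ', ← pow_succ]
    intro u hu
    obtain ⟨z, hz⟩ := hle hu
    exact ⟨z, hz.symm⟩
  have hfix : ∀ u ∈ W, y u = u → u = 0 := by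
    intro u hu h
    obtain ⟨z, hz⟩ := hWr u hu
    rw [hz] at h
    have h3 := unip h5F hy h
    rw [hz, h3, sub_self]
  obtain ⟨k, hk⟩ := four_dvd_finrank hq hq5 hy hW hfix
  have hle4 : finrank F W ≤ 4 := by
    rw [hWd]
    exact (finrank_range_le_card _).trans (by simp)
  have hpos : 0 < finrank F W := by
    rw [Module.finrank_pos_iff_exists_ne_zero]
    exact ⟨⟨v, h0⟩, fun h => hv0 (congrArg Subtype.val h)⟩
  rw [linearIndependent_iff_card_eq_finrank_span]
  rw [Fintype.card_fin]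
  rw [hWd] at hk hle4 hpos
  change 4 = finrank F (Submodule.span F (Set.range fun i : Fin 4 => (y ^ (i : ℕ)) v))
  omega

/-- no eigenvectors of `y + y⁻¹` -/
theorem no_eig (hq : ¬ 5 ∣ Fintype.card F ^ 2 - 1) (hq5 : ¬ 5 ∣ Fintype.card F) {y : V ≃ₗ[F] V}
    (hy : y ^ 5 = 1) {v : V} (hv : ∃ z, v = y z - z) (ρ : F) (h : y v + (y ^ 4) v = ρ • v) : v = 0 := by
  by_contra hv0
  have hli := li_five hq hq5 hy hv hv0
  obtain ⟨z, hz⟩ := hv
  have hz5 : y (y (y (y (y z)))) = z := by
    have := LinearEquiv.congr_fun hy z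
    simpa [pow_succ] using this
  have hN : (y ^ 4) v = -(v + y v + (y ^ 2) v + (y ^ 3) v) := by
    simp only [pow_succ, pow_zero, one_mul, LinearEquiv.mul_apply]
    rw [hz]
    simp only [map_sub, hz5]
    abel
  rw [hN] at h
  have h1 : ∑ i : Fin 4, (![ρ + 1, 0, 1, 1] i : F) • (y ^ (i : ℕ)) v = 0 := by
    rw [Fin.sum_univ_four]
    simp only [Matrix.cons_val_zero, Matrix.cons_val_one, Matrix.cons_val_two, Matrix.cons_val_three, Matrix.head_cons,
      Matrix.tail_cons, Fin.val_zero, Fin.val_one, Fin.val_two, pow_zero, pow_one]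
    rw [show (1 : V ≃ₗ[F] V) v = v from rfl, add_smul, ← h]
    simp only [zero_smul, one_smul, Fin.isValue]
    have e3 : ((3 : Fin 4) : ℕ) = 3 := rfl
    rw [e3]
    abel
  have h3 := Fintype.linearIndependent_iff.1 hli _ h1 3
  simp at h3

/-- 5 is not a square -/
theorem five_not_sq (hq : ¬ 5 ∣ Fintype.card F ^ 2 - 1) (hq5 : ¬ 5 ∣ Fintype.card F) (h2 : (2 : F) ≠ 0) {y : V ≃ₗ[F] V}
    (hy : y ^ 5 = 1) (hy1 : y ≠ 1) : ¬ IsSquare (5 : F) := by
  rintro ⟨r, hr⟩
  obtain ⟨z, hz⟩ : ∃ z, y z ≠ z := by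
    by_contra hno
    push Not at hno
    exact hy1 (LinearEquiv.ext hno)
  obtain ⟨v, hv⟩ : ∃ v, v = y z - z := ⟨_, rfl⟩
  have hv0 : v ≠ 0 := by rw [hv]; exact sub_ne_zero.2 hz
  have hz5 : y (y (y (y (y z)))) = z := by
    have := LinearEquiv.congr_fun hy z
    simpa [pow_succ] using this
  have hv5 : y (y (y (y (y v)))) = v := by
    have := LinearEquiv.congr_fun hy v
    simpa [pow_succ] using this
  have hN : y (y (y (y v))) = -(v + y v + y (y v) + y (y (y v))) := by
    rw [hv]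
    simp only [map_sub, hz5]
    abel
  have hp4 : ∀ u, (y ^ 4) u = y (y (y (y u))) := fun u => by simp [pow_succ]
  obtain ⟨ρ, hρ⟩ : ∃ ρ : F, ρ = (r - 1) / 2 := ⟨_, rfl⟩
  have hρ2 : ρ * ρ = 1 - ρ := by
    rw [hρ]
    field_simp
    linear_combination -hr
  obtain ⟨u, hu⟩ : ∃ u, u = y v + y (y (y (y v))) - ρ • v := ⟨_, rfl⟩
  by_cases hu0 : u = 0
  · rw [hu0] at hu
    refine hv0 (no_eig hq hq5 hy ⟨z, hv⟩ ρ ?_)
    rw [hp4]
    exact (sub_eq_zero.1 hu.symm)
  · refine hu0 (no_eig hq hq5 hy ⟨y z + y (y (y (y z))) - ρ • z, ?_⟩ (-1 - ρ) ?_)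
    · rw [hu, hv]
      simp only [map_sub, map_add, map_smul, smul_sub]
      abel
    · rw [hp4, hu]
      simp only [map_sub, map_add, map_smul, hv5]
      have e1 : ρ • ρ • v = v - ρ • v := by rw [smul_smul, hρ2, sub_smul, one_smul]
      rw [hN]
      simp only [smul_sub, smul_add, sub_smul, neg_smul, one_smul, smul_neg]
      rw [e1]
      abel

end five

section gram

variable {F V : Type*} [Field F] [AddCommGroup V] [Module F V] {Q : QuadraticForm F V}

/-- nonsingular vectors in `[V, y]` -/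
theorem exists_ns_comm (hQ : Nondeg Q) {y : V ≃ₗ[F] V} (hy : y ∈ O Q)
    (hdec : ∀ v, ∃ v₀ z, y v₀ = v₀ ∧ v = v₀ + (y z - z)) (hy1 : y ≠ 1) : ∃ z, Q (y z - z) ≠ 0 := by
  by_contra hno
  push Not at hno
  obtain ⟨z, hz⟩ : ∃ z, y z ≠ z := by
    by_contra h
    push Not at h
    exact hy1 (LinearEquiv.ext h)
  obtain ⟨t, ht⟩ := hQ.exists_polar_ne (sub_ne_zero.2 hz)
  apply ht
  obtain ⟨t₀, s, h0, rfl⟩ := hdec t
  have e1 : polar Q (y z - z) t₀ = 0 := by
    have h1 := polar_map hy z t₀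
    rw [h0] at h1
    rw [polar_sub_left, h1, sub_self]
  have e2 : polar Q (y z - z) (y s - s) = 0 := by
    have h1 : (y z - z) + (y s - s) = y (z + s) - (z + s) := by rw [map_add]; abel
    rw [polar, h1, hno, hno, hno, sub_zero, sub_zero]
  rw [polar_add_right, e1, e2, add_zero]

/-- nonsingular vectors in the fixed space of `y` -/
theorem exists_ns_fixed (hQ : Nondeg Q) {y : V ≃ₗ[F] V} (hy : y ∈ O Q)
    (hdec : ∀ v, ∃ v₀ z, y v₀ = v₀ ∧ v = v₀ + (y z - z)) {w₀ : V} (hw₀ : y w₀ = w₀) (hw0 : w₀ ≠ 0) :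
    ∃ w, y w = w ∧ Q w ≠ 0 := by
  by_contra hno
  push Not at hno
  obtain ⟨t, ht⟩ := hQ.exists_polar_ne hw0
  apply ht
  obtain ⟨t₀, s, h0, rfl⟩ := hdec t
  have e1 : polar Q w₀ t₀ = 0 := by
    rw [polar, hno _ (by rw [map_add, hw₀, h0]), hno _ hw₀, hno _ h0, sub_zero, sub_zero]
  have e2 : polar Q w₀ (y s - s) = 0 := by
    have h1 := polar_map hy w₀ s
    rw [hw₀] at h1
    rw [polar_sub_right, h1, sub_self]
  rw [polar_add_right, e1, e2, add_zero]

/-- an orthogonal basis of the span of four vectors -/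
theorem orth_basis (h2 : (2 : F) ≠ 0) {u : Fin 4 → V} (hli : LinearIndependent F u) :
    ∃ b : Fin 4 → V, (∀ i, b i ∈ Submodule.span F (Set.range u)) ∧ (∀ i, u i ∈ Submodule.span F (Set.range b)) ∧
      (∀ i j, i ≠ j → polar Q (b i) (b j) = 0) ∧
      ∃ d : F, d * (16 * ∏ i, Q (b i)) * d = (Matrix.of fun i j => polar Q (u i) (u j)).det := by
  have hI : Invertible (2 : F) := invertibleOfNonzero h2
  obtain ⟨e, he⟩ : ∃ e : Basis (Fin 4) F (Submodule.span F (Set.range u)), ∀ i, (e i : V) = u i :=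
    ⟨Basis.span hli, fun i => by rw [Basis.span_apply hli i]⟩
  generalize hU : Submodule.span F (Set.range u) = U at *
  have hfd : FiniteDimensional F U := Module.Finite.of_basis e
  have hfr : finrank F U = 4 := by rw [Module.finrank_eq_card_basis e, Fintype.card_fin]
  obtain ⟨B, hB⟩ : ∃ B : LinearMap.BilinForm F U, ∀ x y : U, B x y = polar Q (x : V) (y : V) :=
    ⟨LinearMap.BilinForm.restrict (polarBilin Q) U, fun x y => rfl⟩
  have hBs : LinearMap.IsSymm B := ⟨fun x y => by rw [hB, hB, polar_comm]; rfl⟩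
  obtain ⟨b', hb'⟩ := LinearMap.BilinForm.exists_orthogonal_basis hBs
  obtain ⟨b, hb⟩ : ∃ b : Basis (Fin 4) F U, ∀ i j, i ≠ j → B (b i) (b j) = 0 := by
    refine ⟨b'.reindex (finCongr hfr), fun i j hij => ?_⟩
    rw [Basis.reindex_apply, Basis.reindex_apply]
    exact hb' (fun h => hij ((finCongr hfr).symm.injective h))
  refine ⟨fun i => (b i : V), fun i => (b i).2, fun i => ?_, fun i j hij => by rw [← hB]; exact hb i j hij, ?_⟩
  · have h1 : e i ∈ Submodule.span F (Set.range b) := by rw [b.span_eq]; trivial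
    have h3 := Submodule.mem_map_of_mem (f := U.subtype) h1
    rw [Submodule.map_span, ← Set.range_comp] at h3
    rw [← he]
    exact h3
  · refine ⟨(b.toMatrix e).det, ?_⟩
    have h1 := congrArg Matrix.det (LinearMap.BilinForm.toMatrix_mul_basis_toMatrix (b := b) e B)
    rw [Matrix.det_mul, Matrix.det_mul, Matrix.det_transpose] at h1
    have h3 : LinearMap.BilinForm.toMatrix b B = Matrix.diagonal fun i => 2 * Q (b i : V) := by
      ext i j
      rw [LinearMap.BilinForm.toMatrix_apply]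
      rcases eq_or_ne i j with rfl | hij
      · rw [Matrix.diagonal_apply_eq, hB, polar_self']
      · rw [Matrix.diagonal_apply_ne _ hij, hb i j hij]
    have h4 : LinearMap.BilinForm.toMatrix e B = Matrix.of fun i j => polar Q (u i) (u j) := by
      ext i j
      rw [LinearMap.BilinForm.toMatrix_apply, hB, he, he, Matrix.of_apply]
    rw [h3, h4, Matrix.det_diagonal] at h1
    rw [← h1, Fin.prod_univ_four, Fin.prod_univ_four]
    ring

variable [Fintype F] [FiniteDimensional F V]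

theorem det_gram (b c : F) : Matrix.det !![-2*(b+c),b,c,c;b,-2*(b+c),b,c;c,b,-2*(b+c),b;c,c,b,-2*(b+c)] =
    5 * (b^2+3*b*c+c^2)^2 := by
  simp [Matrix.det_succ_row_zero, Fin.sum_univ_succ, Fin.succAbove]
  ring

theorem exists_orth4 (hq : ¬ 5 ∣ Fintype.card F ^ 2 - 1) (hq5 : ¬ 5 ∣ Fintype.card F) (h2 : (2 : F) ≠ 0)
    (hQ : Nondeg Q) {y : V ≃ₗ[F] V} (hyO : y ∈ O Q) (hy : y ^ 5 = 1) (hy1 : y ≠ 1) :
    ∃ b : Fin 4 → V, (∀ i, Q (b i) ≠ 0) ∧ (∀ i j, i ≠ j → polar Q (b i) (b j) = 0) ∧ ¬ IsSquare (∏ i, Q (b i)) ∧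
      (∀ u ∈ Submodule.span F (Set.range b), y u ∈ Submodule.span F (Set.range b)) ∧
      (∀ i, ∃ z, b i = y z - z) := by
  have hp5 : (Nat.Prime 5) := by norm_num
  have h5F := p_ne (F := F) hp5 hq5
  obtain ⟨z, hz⟩ := exists_ns_comm hQ hyO (exists_dec hp5 hq5 hy) hy1
  obtain ⟨v, hv⟩ : ∃ v, v = y z - z := ⟨_, rfl⟩
  rw [← hv] at hz
  have hv0 : v ≠ 0 := by
    rintro rfl
    exact hz (QuadraticMap.map_zero Q)
  have hli := li_five hq hq5 hy ⟨z, hv⟩ hv0
  have h5sq := five_not_sq hq hq5 h2 hy hy1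
  have e1 : ∀ k : ℕ, y ((y ^ k) v) = (y ^ (k + 1)) v := fun k => by rw [pow_succ', LinearEquiv.mul_apply]
  have hz5 : y (y (y (y (y z)))) = z := by
    have := LinearEquiv.congr_fun hy z
    simpa [pow_succ] using this
  have hv5 : y (y (y (y (y v)))) = v := by
    have := LinearEquiv.congr_fun hy v
    simpa [pow_succ] using this
  have hN : y (y (y (y v))) = -(v + y v + y (y v) + y (y (y v))) := by
    rw [hv]
    simp only [map_sub, hz5]
    abel
  -- the Gram matrix
  obtain ⟨b₁, hb₁⟩ : ∃ b₁, b₁ = polar Q v (y v) := ⟨_, rfl⟩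
  obtain ⟨b₂, hb₂⟩ : ∃ b₂, b₂ = polar Q v (y (y v)) := ⟨_, rfl⟩
  have hpm : ∀ a c, polar Q (y a) (y c) = polar Q a c := polar_map hyO
  have hb₃ : polar Q v (y (y (y v))) = b₂ := by
    rw [← hpm, ← hpm, hv5, polar_comm, hb₂]
  have hb₄ : polar Q v (y (y (y (y v)))) = b₁ := by
    rw [← hpm, hv5, polar_comm, hb₁]
  have hb₀ : polar Q v v = -2 * (b₁ + b₂) := by
    have h3 : polar Q v (v + y v + y (y v) + y (y (y v)) + y (y (y (y v)))) = 0 := by
      rw [hN, add_neg_cancel, polar_zero_right]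
    simp only [polar_add_right, hb₃, hb₄, ← hb₁, ← hb₂] at h3
    linear_combination h3
  obtain ⟨b, hbU, hUb, hort, d, hd⟩ := orth_basis (Q := Q) h2 hli
  have hG : (Matrix.of fun i j : Fin 4 => polar Q ((y ^ (i : ℕ)) v) ((y ^ (j : ℕ)) v)).det =
      5 * (b₁^2+3*b₁*b₂+b₂^2)^2 := by
    rw [← det_gram]
    congr 1
    have hc : ∀ a c, polar Q a c = polar Q c a := polar_comm Q
    have p0 : (y ^ ((0 : Fin 4) : ℕ)) v = v := rfl
    have p1 : (y ^ ((1 : Fin 4) : ℕ)) v = y v := by simp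
    have p2 : (y ^ ((2 : Fin 4) : ℕ)) v = y (y v) := by simp [pow_succ]
    have p3 : (y ^ ((3 : Fin 4) : ℕ)) v = y (y (y v)) := by
      have e3 : ((3 : Fin 4) : ℕ) = 3 := rfl
      rw [e3]
      simp [pow_succ]
    ext i j
    fin_cases i <;> fin_cases j <;>
      simp only [Matrix.of_apply, Fin.zero_eta, Fin.mk_one, Fin.reduceFinMk, Fin.isValue, p0, p1, p2, p3, hpm] <;>
      first
        | exact hb₀
        | exact hb₁.symm
        | exact hb₂.symm
        | exact hb₃
        | (rw [hc]; exact hb₁.symm)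
        | (rw [hc]; exact hb₂.symm)
        | (rw [hc]; exact hb₃)
  rw [hG] at hd
  have hc0 : b₁^2+3*b₁*b₂+b₂^2 ≠ 0 := by
    intro h0
    by_cases hb20 : b₂ = 0
    · have hb10 : b₁ = 0 := by
        rw [hb20] at h0
        have : b₁ ^ 2 = 0 := by linear_combination h0
        exact pow_eq_zero_iff (two_ne_zero) |>.1 this
      rw [polar_self', hb10, hb20, add_zero, mul_zero] at hb₀
      rcases mul_eq_zero.1 hb₀ with h | h
      · exact h2 h
      · exact hz h
    · apply h5sq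
      refine ⟨2 * b₁ / b₂ + 3, ?_⟩
      field_simp
      linear_combination -4 * h0
  have hsq : ¬ IsSquare (∏ i, Q (b i)) := by
    rintro ⟨r, hr⟩
    apply h5sq
    refine ⟨4 * d * r / (b₁^2+3*b₁*b₂+b₂^2), ?_⟩
    rw [div_mul_div_comm, eq_div_iff (mul_ne_zero hc0 hc0)]
    rw [hr] at hd
    linear_combination -hd
  have hne : ∀ i, Q (b i) ≠ 0 := by
    intro i h0
    exact hsq ⟨0, by rw [Finset.prod_eq_zero (Finset.mem_univ i) h0, mul_zero]⟩
  refine ⟨b, hne, hort, hsq, ?_, ?_⟩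
  · have hspan : Submodule.span F (Set.range b) = Submodule.span F (Set.range fun i : Fin 4 => (y ^ (i : ℕ)) v) := by
      apply le_antisymm
      · rw [Submodule.span_le]
        rintro _ ⟨i, rfl⟩
        exact hbU i
      · rw [Submodule.span_le]
        rintro _ ⟨i, rfl⟩
        exact hUb i
    rw [hspan]
    obtain ⟨W, hWd⟩ : ∃ W, W = Submodule.span F (Set.range fun i : Fin 4 => (y ^ (i : ℕ)) v) := ⟨_, rfl⟩
    rw [← hWd]
    have hmem : ∀ k : ℕ, k < 4 → (y ^ k) v ∈ W := fun k hk => by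
      rw [hWd]
      exact Submodule.subset_span ⟨⟨k, hk⟩, rfl⟩
    have m0 : v ∈ W := hmem 0 (by norm_num)
    have m1 : y v ∈ W := hmem 1 (by norm_num)
    have m2 : y (y v) ∈ W := by simpa [pow_succ] using hmem 2 (by norm_num)
    have m3 : y (y (y v)) ∈ W := by simpa [pow_succ] using hmem 3 (by norm_num)
    intro u hu
    have hle : W ≤ W.comap (y : V →ₗ[F] V) := by
      conv_lhs => rw [hWd]
      rw [Submodule.span_le]
      rintro _ ⟨i, rfl⟩
      change y ((y ^ (i : ℕ)) v) ∈ W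
      rw [e1]
      rcases Nat.lt_or_ge ((i : ℕ) + 1) 4 with h | h
      · exact hmem _ h
      · have h3 : (i : ℕ) + 1 = 4 := by omega
        have h4 : (y ^ 4) v = y (y (y (y v))) := by simp [pow_succ]
        rw [h3, h4, hN]
        exact W.neg_mem (W.add_mem (W.add_mem (W.add_mem m0 m1) m2) m3)
    exact hle hu
  · intro i
    have hle : Submodule.span F (Set.range fun i : Fin 4 => (y ^ (i : ℕ)) v) ≤ LinearMap.range ((y : V →ₗ[F] V) - 1) := by
      rw [Submodule.span_le]
      rintro _ ⟨i, rfl⟩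
      refine ⟨(y ^ (i : ℕ)) z, ?_⟩
      change y ((y ^ (i : ℕ)) z) - (y ^ (i : ℕ)) z = (y ^ (i : ℕ)) v
      rw [hv, map_sub, ← LinearEquiv.mul_apply, ← LinearEquiv.mul_apply, ← pow_succ', ← pow_succ]
    obtain ⟨z, hz⟩ := hle (hbU i)
    exact ⟨z, hz.symm⟩

end gram

section corr

variable {F V : Type*} [Field F] [AddCommGroup V] [Module F V] {Q : QuadraticForm F V}

/-- `-1` on the span of an orthogonal family commutes with the isometries preserving the span -/
theorem comm_refl4 [FiniteDimensional F V] (h2 : (2 : F) ≠ 0) {b : Fin 4 → V} (hb : ∀ i, Q (b i) ≠ 0)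
    (hort : ∀ i j, i ≠ j → polar Q (b i) (b j) = 0) {g : V ≃ₗ[F] V} (hg : g ∈ O Q)
    (hgU : ∀ u ∈ Submodule.span F (Set.range b), g u ∈ Submodule.span F (Set.range b)) :
    (refl Q (b 0) (hb 0) * refl Q (b 1) (hb 1) * refl Q (b 2) (hb 2) * refl Q (b 3) (hb 3)) * g =
      g * (refl Q (b 0) (hb 0) * refl Q (b 1) (hb 1) * refl Q (b 2) (hb 2) * refl Q (b 3) (hb 3)) := by
  obtain ⟨s, hs⟩ : ∃ s, s = refl Q (b 0) (hb 0) * refl Q (b 1) (hb 1) * refl Q (b 2) (hb 2) * refl Q (b 3) (hb 3) :=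
    ⟨_, rfl⟩
  rw [← hs]
  have hsO : s ∈ O Q := by
    rw [hs]
    exact (O Q).mul_mem ((O Q).mul_mem ((O Q).mul_mem (refl_mem_O _) (refl_mem_O _)) (refl_mem_O _)) (refl_mem_O _)
  generalize hU : Submodule.span F (Set.range b) = U at *
  have hbU : ∀ i, b i ∈ U := fun i => by rw [← hU]; exact Submodule.subset_span ⟨i, rfl⟩
  have o01 := hort 0 1 (by decide)
  have o02 := hort 0 2 (by decide)
  have o03 := hort 0 3 (by decide)
  have o12 := hort 1 2 (by decide)
  have o13 := hort 1 3 (by decide)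
  have o23 := hort 2 3 (by decide)
  have hsv : ∀ v, s v = v - ((Q (b 3))⁻¹ * polar Q (b 3) v) • b 3 - ((Q (b 2))⁻¹ * polar Q (b 2) v) • b 2 -
      ((Q (b 1))⁻¹ * polar Q (b 1) v) • b 1 - ((Q (b 0))⁻¹ * polar Q (b 0) v) • b 0 := by
    intro v
    rw [hs]
    simp only [LinearEquiv.mul_apply, refl_apply, polar_sub_right, polar_smul_right, o01, o02, o03, o12, o13, o23,
      smul_zero, sub_zero]
  have hneg : ∀ u ∈ U, s u = -u := by
    intro u hu
    rw [← hU] at hu
    induction hu using Submodule.span_induction with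
    | mem x hx =>
      obtain ⟨i, rfl⟩ := hx
      have hself : ∀ i, (Q (b i))⁻¹ * polar Q (b i) (b i) = 2 := fun i => by
        rw [polar_self']
        have := hb i
        field_simp
      have hoth : ∀ j i, j ≠ i → (Q (b j))⁻¹ * polar Q (b j) (b i) = 0 := fun j i h => by rw [hort j i h, mul_zero]
      rw [hsv]
      fin_cases i
      · simp only [Fin.zero_eta, Fin.isValue]
        rw [hself, hoth 1 0 (by decide), hoth 2 0 (by decide), hoth 3 0 (by decide)]
        module
      · simp only [Fin.mk_one, Fin.isValue]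
        rw [hself, hoth 0 1 (by decide), hoth 2 1 (by decide), hoth 3 1 (by decide)]
        module
      · simp only [Fin.reduceFinMk, Fin.isValue]
        rw [hself, hoth 0 2 (by decide), hoth 1 2 (by decide), hoth 3 2 (by decide)]
        module
      · simp only [Fin.reduceFinMk, Fin.isValue]
        rw [hself, hoth 0 3 (by decide), hoth 1 3 (by decide), hoth 2 3 (by decide)]
        module
    | zero => rw [map_zero, neg_zero]
    | add x y _ _ hx hy => rw [map_add, hx, hy, neg_add]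
    | smul a x _ hx => rw [map_smul, hx, smul_neg]
  have hsub : ∀ v, v - s v ∈ U := by
    intro v
    have e : v - s v = ((Q (b 3))⁻¹ * polar Q (b 3) v) • b 3 + ((Q (b 2))⁻¹ * polar Q (b 2) v) • b 2 +
      ((Q (b 1))⁻¹ * polar Q (b 1) v) • b 1 + ((Q (b 0))⁻¹ * polar Q (b 0) v) • b 0 := by
      rw [hsv]
      abel
    rw [e]
    exact U.add_mem (U.add_mem (U.add_mem (U.smul_mem _ (hbU 3)) (U.smul_mem _ (hbU 2))) (U.smul_mem _ (hbU 1)))
      (U.smul_mem _ (hbU 0))
  have hss : ∀ v, s (s v) = v := by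
    intro v
    have h1 := hneg _ (hsub v)
    rw [map_sub, neg_sub] at h1
    have h3 : s (s v) = s v - (s v - v) := by rw [← h1]; abel
    rw [h3]
    abel
  have hgi : ∀ u ∈ U, g⁻¹ u ∈ U := by
    have h1 : U.map (g : V →ₗ[F] V) = U := by
      apply Submodule.eq_of_le_of_finrank_eq
      · rintro _ ⟨w, hw, rfl⟩
        exact hgU w hw
      · exact (Submodule.equivMapOfInjective (g : V →ₗ[F] V) g.injective _).finrank_eq.symm
    intro w hw
    rw [← h1] at hw
    obtain ⟨w', hw', rfl⟩ := hw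
    have : g⁻¹ (g w') = w' := g.symm_apply_apply w'
    show g⁻¹ (g w') ∈ _
    rw [this]
    exact hw'
  have hfix : ∀ t, s t = t → s (g t) = g t := by
    intro t ht
    have h1 : ∀ u ∈ U, polar Q u t = 0 := by
      intro u hu
      have h3 := polar_map hsO u t
      rw [ht, hneg u hu, polar_neg_left] at h3
      have h4 : 2 * polar Q u t = 0 := by linear_combination -h3
      exact (mul_eq_zero.1 h4).resolve_left h2
    have h3 : ∀ u ∈ U, polar Q u (g t) = 0 := by
      intro u hu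
      have h4 := polar_map hg (g⁻¹ u) t
      have h5 : g (g⁻¹ u) = u := g.apply_symm_apply u
      rw [h5] at h4
      rw [h4]
      exact h1 _ (hgi u hu)
    rw [hsv, h3 _ (hbU 0), h3 _ (hbU 1), h3 _ (hbU 2), h3 _ (hbU 3)]
    simp only [mul_zero, zero_smul, sub_zero]
  ext v
  rw [LinearEquiv.mul_apply, LinearEquiv.mul_apply]
  have h1 := hfix (v + s v) (by rw [map_add, hss, add_comm])
  have h3 := hneg _ (hgU _ (hsub v))
  rw [map_add, map_add] at h1
  rw [map_sub, map_sub] at h3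
  have h4 : (2 : F) • s (g v) = (2 : F) • g (s v) := by
    rw [two_smul, two_smul]
    have e1 : s (g v) = g v + g (s v) - s (g (s v)) := by rw [← h1]; abel
    have e2 : s (g v) = s (g (s v)) - (g v - g (s v)) := by
      rw [sub_eq_iff_eq_add] at h3
      rw [h3]
      abel
    calc s (g v) + s (g v) = (g v + g (s v) - s (g (s v))) + (s (g (s v)) - (g v - g (s v))) := by
          rw [← e1, ← e2]
      _ = g (s v) + g (s v) := by abel
  have h5 := congrArg (fun z => (2 : F)⁻¹ • z) h4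
  simpa only [smul_smul, inv_mul_cancel₀ h2, one_smul] using h5

/-- reflections whose norms agree up to squares -/
theorem refl_refl_mem (hG : Good Q) {v w : V} (hv : Q v ≠ 0) (hw : Q w ≠ 0) (h : IsSquare (Q v / Q w)) :
    refl Q v hv * refl Q w hw ∈ E Q := by
  obtain ⟨r, hr⟩ := h
  have hr0 : r ≠ 0 := by
    rintro rfl
    rw [mul_zero, div_eq_zero_iff] at hr
    exact hr.elim hv hw
  have hQ : Q (r⁻¹ • v) = Q w := by
    rw [QuadraticMap.map_smul, smul_eq_mul]
    rw [div_eq_iff hw] at hr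
    rw [hr]
    field_simp
  have hv' : Q (r⁻¹ • v) ≠ 0 := by rw [hQ]; exact hw
  have h1 := hG.refl_mul_refl_mem hw hv' hQ.symm
  rwa [refl_smul hv (inv_ne_zero hr0) hv'] at h1

open scoped commutatorElement in
/-- the combination of reflections -/
theorem word_mem [Fintype F] [FiniteDimensional F V] (hG : Good Q) {v w : V} (hv : Q v ≠ 0) (hw : Q w ≠ 0)
    (hns : ¬ IsSquare (Q v / Q w)) {b : Fin 4 → V} (hb : ∀ i, Q (b i) ≠ 0) (hbs : ¬ IsSquare (∏ i, Q (b i))) :
    refl Q v hv * (refl Q (b 0) (hb 0) * refl Q (b 1) (hb 1) * refl Q (b 2) (hb 2) * refl Q (b 3) (hb 3) *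
      refl Q w hw) ∈ E Q := by
  classical
  let N : Subgroup ↥(O Q) := (E Q).subgroupOf (O Q)
  have hN : N.Normal := ⟨fun n hn g => by
    rw [Subgroup.mem_subgroupOf] at hn ⊢
    exact conj_mem_E g.2 hn⟩
  let π := QuotientGroup.mk' N
  have hπ : ∀ g : ↥(O Q), π g = 1 ↔ (g : V ≃ₗ[F] V) ∈ E Q := fun g => by
    rw [QuotientGroup.mk'_apply, QuotientGroup.eq_one_iff, Subgroup.mem_subgroupOf]
  let R : ∀ u : V, Q u ≠ 0 → ↥(O Q) := fun u hu => ⟨refl Q u hu, refl_mem_O hu⟩
  have hRR : ∀ u (hu : Q u ≠ 0), π (R u hu) * π (R u hu) = 1 := fun u hu => by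
    rw [← map_mul, hπ]
    have : ((R u hu * R u hu : ↥(O Q)) : V ≃ₗ[F] V) = 1 := refl_mul_self hu
    rw [this]
    exact (E Q).one_mem
  have hcomm : ∀ a c : ↥(O Q), π a * π c = π c * π a := by
    intro a c
    rw [← map_mul, ← map_mul]
    have h1 : π (a * c * (c * a)⁻¹) = 1 := by
      rw [hπ]
      have e : ((a * c * (c * a)⁻¹ : ↥(O Q)) : V ≃ₗ[F] V) = ⁅(a : V ≃ₗ[F] V), (c : V ≃ₗ[F] V)⁆ := by
        rw [commutatorElement_def]
        push_cast
        group
      rw [e]
      exact hG.commutator_le_E (Subgroup.commutator_mem_commutator a.2 c.2)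
    rw [map_mul, map_inv, mul_inv_eq_one] at h1
    exact h1
  have hsq : ∀ (u u' : V) (hu : Q u ≠ 0) (hu' : Q u' ≠ 0), IsSquare (Q u / Q u') → π (R u hu) = π (R u' hu') := by
    intro u u' hu hu' h
    have h1 : π (R u hu) * π (R u' hu') = 1 := by
      rw [← map_mul, hπ]
      exact refl_refl_mem hG hu hu' h
    calc π (R u hu) = π (R u hu) * (π (R u' hu') * π (R u' hu')) := by rw [hRR, mul_one]
      _ = π (R u' hu') := by rw [← mul_assoc, h1, one_mul]
  -- characters
  have hχ : ∀ a : F, a ≠ 0 → (quadraticChar F a = 1 ∧ IsSquare a) ∨ (quadraticChar F a = -1 ∧ ¬ IsSquare a) := by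
    intro a ha
    by_cases h : IsSquare a
    · exact Or.inl ⟨(quadraticChar_one_iff_isSquare ha).2 h, h⟩
    · exact Or.inr ⟨quadraticChar_neg_one_iff_not_isSquare.2 h, h⟩
  obtain ⟨A, hA⟩ : ∃ A, A = π (R w hw) := ⟨_, rfl⟩
  obtain ⟨C, hC⟩ : ∃ C, C = π (R v hv) := ⟨_, rfl⟩
  have hAA : A * A = 1 := by rw [hA]; exact hRR _ _
  have hCC : C * C = 1 := by rw [hC]; exact hRR _ _
  have hAC : A * C = C * A := by rw [hA, hC]; exact hcomm _ _
  obtain ⟨D, hD⟩ : ∃ D, D = C * A := ⟨_, rfl⟩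
  have hDD : D * D = 1 := by
    rw [hD]
    calc C * A * (C * A) = C * (A * C) * A := by group
      _ = C * (C * A) * A := by rw [hAC]
      _ = (C * C) * (A * A) := by group
      _ = 1 := by rw [hAA, hCC, one_mul]
  have hfi : ∀ i, (quadraticChar F (Q (b i) / Q w) = 1 ∧ π (R (b i) (hb i)) = A) ∨
      (quadraticChar F (Q (b i) / Q w) = -1 ∧ π (R (b i) (hb i)) = C) := by
    intro i
    have h0 : Q (b i) / Q w ≠ 0 := div_ne_zero (hb i) hw
    rcases hχ _ h0 with ⟨h1, h3⟩ | ⟨h1, h3⟩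
    · left
      exact ⟨h1, by rw [hA]; exact hsq _ _ _ _ h3⟩
    · right
      refine ⟨h1, ?_⟩
      rw [hC]
      apply hsq
      have hv' : Q v / Q w ≠ 0 := div_ne_zero hv hw
      have h4 : quadraticChar F (Q v / Q w) = -1 := quadraticChar_neg_one_iff_not_isSquare.2 hns
      have h5 : IsSquare (Q (b i) / Q w * (Q v / Q w)) := by
        rw [← quadraticChar_one_iff_isSquare (mul_ne_zero h0 hv'), map_mul, h1, h4]
        norm_num
      obtain ⟨r, hr⟩ := h5
      refine ⟨r * Q w / Q v, ?_⟩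
      field_simp at hr ⊢
      linear_combination hr
  have hprod : quadraticChar F (Q (b 0) / Q w) * quadraticChar F (Q (b 1) / Q w) * quadraticChar F (Q (b 2) / Q w) *
      quadraticChar F (Q (b 3) / Q w) = -1 := by
    rw [← map_mul, ← map_mul, ← map_mul, quadraticChar_neg_one_iff_not_isSquare]
    rintro ⟨r, hr⟩
    apply hbs
    rw [Fin.prod_univ_four]
    refine ⟨r * Q w ^ 2, ?_⟩
    field_simp at hr
    linear_combination hr
  have key : π (R (b 0) (hb 0)) * π (R (b 1) (hb 1)) * π (R (b 2) (hb 2)) * π (R (b 3) (hb 3)) = A * C := by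
    have e1 : A * A = 1 := hAA
    have e2 : C * C = 1 := hCC
    have e3 : ∀ z, A * (A * z) = z := fun z => by rw [← mul_assoc, hAA, one_mul]
    have e4 : ∀ z, C * (C * z) = z := fun z => by rw [← mul_assoc, hCC, one_mul]
    have e5 : ∀ z, C * (A * z) = A * (C * z) := fun z => by rw [← mul_assoc, ← hAC, mul_assoc]
    have e6 : C * A = A * C := hAC.symm
    rcases hfi 0 with ⟨h0, g0⟩ | ⟨h0, g0⟩ <;> rcases hfi 1 with ⟨h1, g1⟩ | ⟨h1, g1⟩ <;>
      rcases hfi 2 with ⟨h2, g2⟩ | ⟨h2, g2⟩ <;> rcases hfi 3 with ⟨h3, g3⟩ | ⟨h3, g3⟩ <;>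
      rw [h0, h1, h2, h3] at hprod <;>
      first
        | (exfalso; revert hprod; norm_num; done)
        | (rw [g0, g1, g2, g3]; simp only [mul_assoc, e1, e2, e3, e4, e5, e6, mul_one, one_mul])
  have hfin := (hπ (R v hv * (R (b 0) (hb 0) * R (b 1) (hb 1) * R (b 2) (hb 2) * R (b 3) (hb 3) * R w hw))).1 (by
    rw [map_mul, map_mul, map_mul, map_mul, map_mul, key, ← hC, ← hA, hAC]
    calc C * (C * A * A) = (C * C) * (A * A) := by group
      _ = 1 := by rw [hAA, hCC, one_mul])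
  exact hfin

/-- **the correction** -/
theorem corr [Fintype F] [FiniteDimensional F V] (hG : Good Q) (hq : ¬ 5 ∣ Fintype.card F ^ 2 - 1)
    (hq5 : ¬ 5 ∣ Fintype.card F) {x y : V ≃ₗ[F] V} (hx : x ∈ O Q) (hy : y ∈ O Q) (hyp : y ^ 5 = 1) (hy1 : y ≠ 1)
    (htr : Tr y x) {w : V} (hxw : x w = w) (hyw : y w = w) (hw : Q w ≠ 0) {g : V ≃ₗ[F] V}
    (hg : g ∈ O Q) : ∃ t ∈ O Q, t * x = x * t ∧ t * y = y * t ∧ g * t ∈ E Q := by
  have hgen := hg
  rw [O_eq_closure hG.nondeg] at hgen
  have hle : ∀ x ∈ Subgroup.closure (reflSet Q ∪ siegelSet Q), x ∈ O Q := fun x hx => by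
    rw [O_eq_closure hG.nondeg]; exact hx
  have hrw : ∀ z ∈ O Q, z w = w → refl Q w hw * z = z * refl Q w hw := by
    intro z hz hzw
    have h1 := refl_conj hz hw (by rw [hzw]; exact hw)
    have h3 : refl Q (z w) (by rw [hzw]; exact hw) = refl Q w hw := by congr 1
    rw [h3, mul_inv_eq_iff_eq_mul] at h1
    exact h1.symm
  clear hg
  induction hgen using Subgroup.closure_induction with
  | mem z hz =>
    rcases hz with ⟨v, hv, rfl⟩ | ⟨u, w, hu, hw, rfl⟩
    · by_cases hs : IsSquare (Q v / Q w)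
      · exact ⟨refl Q w hw, refl_mem_O hw, hrw x hx hxw, hrw y hy hyw, refl_refl_mem hG hv hw hs⟩
      · have h2 : (2 : F) ≠ 0 := by
          intro h2
          apply hs
          have hchar : ringChar F = 2 := by
            have h3 : ringChar F ∣ 2 := ringChar.dvd (by exact_mod_cast h2)
            rcases (Nat.dvd_prime Nat.prime_two).1 h3 with h | h
            · exact absurd h (CharP.ringChar_ne_one)
            · exact h
          exact FiniteField.isSquare_of_char_two hchar _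
        obtain ⟨b, hb, hort, hbs, hby, hbc⟩ := exists_orth4 hq hq5 h2 hG.nondeg hy hyp hy1
        obtain ⟨s, hs'⟩ : ∃ s, s = refl Q (b 0) (hb 0) * refl Q (b 1) (hb 1) * refl Q (b 2) (hb 2) *
          refl Q (b 3) (hb 3) := ⟨_, rfl⟩
        have hsO : s ∈ O Q := by
          rw [hs']
          exact (O Q).mul_mem ((O Q).mul_mem ((O Q).mul_mem (refl_mem_O _) (refl_mem_O _)) (refl_mem_O _)) (refl_mem_O _)
        have hsy : s * y = y * s := by
          rw [hs']
          exact comm_refl4 h2 hb hort hy hby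
        have hsx : s * x = x * s := by
          rw [hs']
          refine comm_refl4 h2 hb hort hx ?_
          intro u hu
          have h3 : x u = u := by
            induction hu using Submodule.span_induction with
            | mem z hz =>
              obtain ⟨i, rfl⟩ := hz
              obtain ⟨t, ht⟩ := hbc i
              rw [ht]
              exact htr t
            | zero => exact map_zero x
            | add a c _ _ ha hc => rw [map_add, ha, hc]
            | smul a c _ hc => rw [map_smul, hc]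
          rw [h3]
          exact hu
        refine ⟨s * refl Q w hw, (O Q).mul_mem hsO (refl_mem_O hw), ?_, ?_, ?_⟩
        · exact ((show Commute s x from hsx).mul_left (show Commute (refl Q w hw) x from hrw x hx hxw)).eq
        · exact ((show Commute s y from hsy).mul_left (show Commute (refl Q w hw) y from hrw y hy hyw)).eq
        · rw [hs']
          exact word_mem hG hv hw hs hb hbs
    · exact ⟨1, (O Q).one_mem, by rw [one_mul, mul_one], by rw [one_mul, mul_one], by
        rw [mul_one]; exact siegel_mem_E hu hw⟩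
  | one => exact ⟨1, (O Q).one_mem, by rw [one_mul, mul_one], by rw [one_mul, mul_one], by
      rw [mul_one]; exact (E Q).one_mem⟩
  | mul a c ha hc iha ihc =>
    obtain ⟨t, ht, htx, hty, hat⟩ := iha
    obtain ⟨t', ht', htx', hty', hct⟩ := ihc
    refine ⟨t' * t, (O Q).mul_mem ht' ht, ?_, ?_, ?_⟩
    · exact ((show Commute t' x from htx').mul_left (show Commute t x from htx)).eq
    · exact ((show Commute t' y from hty').mul_left (show Commute t y from hty)).eq
    · have e : a * c * (t' * t) = (a * t) * (t⁻¹ * (c * t') * t⁻¹⁻¹) := by group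
      rw [e]
      exact (E Q).mul_mem hat (conj_mem_E ((O Q).inv_mem ht) hct)
  | inv a ha iha =>
    obtain ⟨t, ht, htx, hty, hat⟩ := iha
    refine ⟨t⁻¹, (O Q).inv_mem ht, ?_, ?_, ?_⟩
    · exact (show Commute t x from htx).inv_left.eq
    · exact (show Commute t y from hty).inv_left.eq
    · have e : a⁻¹ * t⁻¹ = t * (a * t)⁻¹ * t⁻¹ := by group
      rw [e]
      exact conj_mem_E ht ((E Q).inv_mem hat)

end corr

end Cfsg.Agent.H292.K6
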